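import Cfsg.Agent.H335.FT.CertB

/-!
# S2464, `F₄(2)`: products of two elements of order 13, one coset of `Q` (helper621)

* `T13` : product of two elements of order 13;
* `CD`, `CD.chk`, `CD.sound` : the certificate of one coset `w Q`: pivots reduce `w q`, up to conjugation by `Q`, to
  `w * e`, `e` a product of free letters; for every `e` one element `h` of order 13 of the table with `h w e` of
  order 13.
-/

set_option autoImplicit false

namespace Cfsg.Agent.H621.F4T

open scoped commutatorElement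
open Cfsg.Agent.H335.FT Cfsg.Agent.ChevalleyStructure.Tits.Pack

/-- product of two elements of order 13 -/
def T13 {G : Type*} [Group G] (g : G) : Prop := ∃ a b : G, a ^ 13 = 1 ∧ a ≠ 1 ∧ b ^ 13 = 1 ∧ b ≠ 1 ∧ g = a * b

theorem T13.map {G H : Type*} [Group G] [Group H] (e : G ≃* H) {g : G} (h : T13 g) : T13 (e g) := by
  obtain ⟨a, b, h1, h2, h3, h4, rfl⟩ := h
  refine ⟨e a, e b, by rw [← map_pow, h1, map_one], ?_, by rw [← map_pow, h3, map_one], ?_, map_mul e a b⟩
  · intro h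
    exact h2 (e.injective (by rw [h, map_one]))
  · intro h
    exact h4 (e.injective (by rw [h, map_one]))

theorem T13.of_conj {G : Type*} [Group G] {g x : G} (h : T13 (x * g * x⁻¹)) : T13 g := by
  have h1 := h.map (MulAut.conj x⁻¹)
  have e : (MulAut.conj x⁻¹) (x * g * x⁻¹) = g := by
    rw [MulAut.conj_apply]; group
  rwa [e] at h1

/-- the 13-th power -/
def pow13 (K : ℕ) : ℕ :=
  mulP (mulP (mulP (mulP (mulP K K) (mulP K K)) (mulP (mulP K K) (mulP K K))) (mulP (mulP K K) (mulP K K))) K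

theorem rp_pow13 {K : ℕ} {g : GF} (h : Rp K g) : Rp (pow13 K) (g ^ 13) := by
  have h2 := h.mul h
  have h4 := h2.mul h2
  have h5 := ((h4.mul h4).mul h4).mul h
  have e : g * g * (g * g) * (g * g * (g * g)) * (g * g * (g * g)) * g = g ^ 13 := by
    simp only [pow_succ, pow_zero, one_mul, mul_assoc]
  rw [e] at h5
  exact h5

theorem exists_ix {n : ℕ} (hn : n < 52) : ∃ i : I52, ix i = n := by
  by_cases h : n < 4
  · exact ⟨Sum.inl ⟨n, h⟩, rfl⟩
  · refine ⟨Sum.inr ⟨n - 4, by omega⟩, ?_⟩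
    change 4 + (n - 4) = n
    omega

theorem bz_inj {a b : Bool} (h : bz a = bz b) : a = b := by
  revert a b
  decide

theorem lt_pow {a n k : ℕ} (h : a < 2 ^ n) (hk : n ≤ k) : a < 2 ^ k :=
  lt_of_lt_of_le h (Nat.pow_le_pow_right (by norm_num) hk)

theorem oneP_lt : oneP < 2 ^ 2704 := by decide +kernel

theorem rp_one {K : ℕ} (h : Rp K 1) : K % 2 ^ 2704 = oneP := by
  have h1 : toMat K = toMat oneP := h.trans Rp.one.symm
  apply Nat.eq_of_testBit_eq
  intro p
  rw [Nat.testBit_mod_two_pow]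
  by_cases hp : p < 2704
  · obtain ⟨j, hj⟩ := exists_ix (n := p / 52) (by omega)
    obtain ⟨i, hi⟩ := exists_ix (n := p % 52) (by omega)
    have h2 := congrFun (congrFun h1 i) j
    rw [toMat_apply, toMat_apply, hj, hi, Nat.div_add_mod] at h2
    rw [bz_inj h2, decide_eq_true hp, Bool.true_and]
  · rw [decide_eq_false hp, Bool.false_and]
    symm
    have h3 : 2704 ≤ p := by omega
    have h4 : oneP < 2 ^ p := lt_pow (n := 2704) (k := p) oneP_lt h3
    exact Nat.testBit_lt_two_pow h4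

/-- of order 13 -/
def c13 (K : ℕ) : Bool := !(Nat.beq (K % 2 ^ 2704) oneP) && Nat.beq (pow13 K) oneP

theorem of_c13 {K : ℕ} {g : GF} (h : Rp K g) (hc : c13 K = true) : g ^ 13 = 1 ∧ g ≠ 1 := by
  unfold c13 at hc
  rw [Bool.and_eq_true, Bool.not_eq_true'] at hc
  have h1 := rp_pow13 h
  rw [Nat.eq_of_beq_eq_true hc.2] at h1
  refine ⟨h1.inj Rp.one, ?_⟩
  rintro rfl
  rw [rp_one h, Nat.beq_refl] at hc
  exact absurd hc.1 (by simp)

/-- entry of the table -/
def en (TP i : ℕ) : ℕ := (TP >>> (2704 * i)) % 2 ^ 2704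

/-- index of a state -/
def ik (IX m : ℕ) : ℕ := (IX >>> (8 * m)) % 256

/-- the table is sound -/
def TabOK (TP N : ℕ) : Prop := ∀ i < N, ∃ h : GF, Rp (en TP i) h ∧ h ^ 13 = 1 ∧ h ≠ 1

/-- one state -/
def chkS (TP N IX m R : ℕ) : Bool := Nat.blt (ik IX m) N && c13 (mulP (en TP (ik IX m)) R)

theorem of_chkS {TP N IX m R : ℕ} (hT : TabOK TP N) {g : GF} (hR : Rp R g) (h : chkS TP N IX m R = true) : T13 g := by
  unfold chkS at h
  rw [Bool.and_eq_true, Nat.blt_eq] at h
  obtain ⟨a, ha, ha13, ha1⟩ := hT _ h.1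
  obtain ⟨hb, hb1⟩ := of_c13 (ha.mul hR) h.2
  exact ⟨a⁻¹, a * g, by rw [inv_pow, ha13, inv_one], inv_ne_one.2 ha1, hb, hb1, (inv_mul_cancel_left a g).symm⟩

/-- all the states `g * wd c`, `c` a sublist of `F` -/
def walk (TP N IX : ℕ) : List ℕ → ℕ → ℕ → Bool
  | [], R, m => chkS TP N IX m R
  | f :: F, R, m => walk TP N IX F R (2 * m) && walk TP N IX F (mulP R (XP f)) (2 * m + 1)

theorem of_walk {TP N IX : ℕ} (hT : TabOK TP N) : ∀ {F : List ℕ} {R m : ℕ} {g : GF}, Rp R g →
    walk TP N IX F R m = true → ∀ c : List ℕ, c.Sublist F → T13 (g * wd c)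
  | [], R, m, g, hR, h, c, hc => by
    have hc' : c = [] := List.sublist_nil.1 hc
    rw [hc', wd_nil, mul_one]
    exact of_chkS hT hR h
  | f :: F, R, m, g, hR, h, c, hc => by
    rw [walk, Bool.and_eq_true] at h
    cases hc with
    | cons _ hc => exact of_walk hT hR h.1 c hc
    | cons_cons _ hc =>
      rw [wd_cons, ← mul_assoc]
      exact of_walk hT (hR.mul (Rp.gx f)) h.2 _ hc

/-! ### reduction by pivots -/

section

variable {G : Type*} [Group G]

theorem step {Q A K N : Subgroup G} (hK : ∀ k ∈ K, ∀ q ∈ Q, k * q = q * k) (hKN : K ≤ N) (hNQ : N ≤ Q) (hAQ : A ≤ Q)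
    (hA : ∀ a ∈ A, ∀ b ∈ Q, ⁅a, b⁆ ∈ K) {W s y g t t' : G} (hs : s ∈ Q) (hy : y ∈ A) (hg : g ∈ A) (ht : t ∈ A)
    (htN : t ∈ N) (ht' : t' ∈ N) (hgg : g * g = 1) (e : y * W = W * (g * (t * y))) :
    ∃ n ∈ N, y * (W * (s * (g * t'))) * y⁻¹ = W * (s * n) := by
  have hgt' : s * (g * t') ∈ Q := mul_mem hs (mul_mem (hAQ hg) (hNQ ht'))
  obtain ⟨z1, hz1, e1⟩ : ∃ z ∈ K, y * (s * (g * t')) * y⁻¹ = z * (s * (g * t')) :=
    ⟨_, hA y hy _ hgt', by rw [commutatorElement_def]; group⟩
  obtain ⟨z2, hz2, e2⟩ : ∃ z ∈ K, (g * t) * s = z * (s * (g * t)) :=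
    ⟨_, hA (g * t) (mul_mem hg ht) _ hs, by rw [commutatorElement_def]; group⟩
  obtain ⟨z3, hz3, e3⟩ : ∃ z ∈ K, g * t = z * (t * g) :=
    ⟨_, hA g hg _ (hAQ ht), by rw [commutatorElement_def]; group⟩
  have hz1' : z1 ∈ N := hKN hz1
  refine ⟨z1 * (z2 * (z3 * (t * t'))), mul_mem hz1' (mul_mem (hKN hz2) (mul_mem (hKN hz3) (mul_mem htN ht'))), ?_⟩
  have c1 : ∀ q ∈ Q, z1 * q = q * z1 := hK z1 hz1
  have c2 : ∀ q ∈ Q, z2 * q = q * z2 := hK z2 hz2
  calc y * (W * (s * (g * t'))) * y⁻¹ = (y * W) * (s * (g * t')) * y⁻¹ := by group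
    _ = W * ((g * t) * (y * (s * (g * t')) * y⁻¹)) := by rw [e]; group
    _ = W * ((g * t) * (z1 * (s * (g * t')))) := by rw [e1]
    _ = W * (z1 * ((g * t) * (s * (g * t')))) := by
        rw [← mul_assoc (g * t) z1, ← c1 _ (mul_mem (hAQ hg) (hAQ ht)), mul_assoc]
    _ = W * (z1 * (((g * t) * s) * (g * t'))) := by rw [mul_assoc (g * t) s]
    _ = W * (z1 * ((z2 * (s * (g * t))) * (g * t'))) := by rw [e2]
    _ = W * (z1 * (z2 * (s * ((g * t) * (g * t'))))) := by group
    _ = W * (z1 * (z2 * (s * ((z3 * (t * g)) * (g * t'))))) := by rw [← e3]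
    _ = W * (z1 * (z2 * (s * (z3 * (t * ((g * g) * t')))))) := by group
    _ = W * (z1 * (z2 * (s * (z3 * (t * t'))))) := by rw [hgg, one_mul]
    _ = W * (s * (z1 * (z2 * (z3 * (t * t'))))) := by
        have q3 : z3 * (t * t') ∈ Q := hNQ (mul_mem (hKN hz3) (mul_mem htN ht'))
        rw [← mul_assoc z2, c2 s hs, mul_assoc s, ← mul_assoc z1, c1 s hs, mul_assoc s]

end

/-- a coset certificate -/
structure CD where
  /-- the word -/
  w : List ℕ
  /-- its packed matrix -/
  M : ℕ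
  /-- pivots -/
  P : List (ℕ × List ℕ × List ℕ)
  /-- free letters -/
  F : List ℕ
  /-- indices of the states -/
  I : ℕ

/-- pivots -/
def chkP (M : ℕ) (F : List ℕ) (P : List (ℕ × List ℕ × List ℕ)) : List ℕ → Bool
  | [] => true
  | r :: L => (me r F || P.any fun e => Nat.beq e.1 r && (su e.2.2 L &&
      ((su CertB.Zl L && su e.2.1 CertB.Ql || (me r CertB.Zl && (su e.2.1 CertB.Zl && su L CertB.Zl))) &&
        Nat.beq (evOn e.2.1 M) (mulP M (evOn (r :: (e.2.2 ++ e.2.1)) oneP))))) && chkP M F P L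

/-- the certificate -/
def CD.chk (TP N : ℕ) (C : CD) : Bool := Nat.beq (evOn C.w oneP) C.M && (chkP C.M C.F C.P CertB.Ql &&
  walk TP N C.I (CertB.Ql.filter fun r => me r C.F) C.M 0)

theorem hqz : QZ (Cl CertB.Ql) (Cl CertB.Zl) := qz CertB.h1 CertB.h2 CertB.h3

/-- the flag of `Q` -/
def EQ : List (ℕ × ℕ × List ℕ) := CertB.Ql.flatMap fun r => CertB.Ql.map fun s =>
  (r, s, bif Nat.beq (r + s) 73 && Nat.blt r s then [s, 44] else [s])

theorem hfl : chkFl EQ CertB.Ql = true := by decide +kernel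

theorem flQ : Fl gx CertB.Ql := fl_of_chk hfl

theorem sublist_mem {w L : List ℕ} (h : w.Sublist L) : wd w ∈ Cl L := wd_mem_Cl fun _ hr => h.subset hr

theorem red {M : ℕ} {W : GF} (hM : Rp M W) {F : List ℕ} {P : List (ℕ × List ℕ × List ℕ)} :
    ∀ {L : List ℕ}, Fl gx L → (∀ r ∈ L, r ∈ CertB.Ql) → chkP M F P L = true → ∀ s ∈ Cl CertB.Ql, ∀ t ∈ Cl L,
      ∃ y : GF, ∃ c : List ℕ, c.Sublist (L.filter fun r => me r F) ∧ y * (W * (s * t)) * y⁻¹ = W * (s * wd c)
  | [], _, _, _, s, _, t, ht => by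
    have ht1 : t = 1 := by
      have : (gx '' {r | r ∈ ([] : List ℕ)}) = ∅ := by
        ext; simp
      unfold Cl at ht
      rw [this, Subgroup.closure_empty, Subgroup.mem_bot] at ht
      exact ht
    refine ⟨1, [], List.Sublist.slnil, ?_⟩
    rw [ht1, wd_nil]
    group
  | r :: L, hF, hL, h, s, hs, t, ht => by
    rw [chkP, Bool.and_eq_true, Bool.or_eq_true] at h
    obtain ⟨h1, h2⟩ := h
    have hFL : Fl gx L := by
      cases hF with
      | cons hF _ => exact hF
    have hLQ : ∀ r ∈ L, r ∈ CertB.Ql := fun r hr => hL r (List.mem_cons_of_mem _ hr)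
    have hrQ : r ∈ CertB.Ql := hL r List.mem_cons_self
    have ih := red hM (F := F) (P := P) hFL hLQ h2
    obtain ⟨w, hw, e⟩ := hF.exists_prod gx_inv t ht
    have e' : t = wd w := e
    subst e'
    cases hw with
    | cons _ hw =>
      obtain ⟨y, c, hc, e2⟩ := ih s hs _ (sublist_mem hw)
      refine ⟨y, c, hc.trans ?_, e2⟩
      exact (List.sublist_cons_self r L).filter _
    | cons_cons _ hw =>
      rename_i w'
      rw [wd_cons]
      rcases h1 with h1 | h1
      · obtain ⟨y, c, hc, e2⟩ := ih (s * gx r) (mul_mem hs (gx_mem_Cl hrQ)) _ (sublist_mem hw)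
        refine ⟨y, r :: c, ?_, ?_⟩
        · rw [List.filter_cons_of_pos (by exact h1)]
          exact hc.cons_cons r
        · rw [wd_cons, ← mul_assoc s, e2, mul_assoc s]
      · rw [List.any_eq_true] at h1
        obtain ⟨e, -, h3⟩ := h1
        simp only [Bool.and_eq_true, Bool.or_eq_true] at h3
        obtain ⟨-, h4, h5, h6⟩ := h3
        have ey : wd e.2.1 * W = W * (gx r * (wd e.2.2 * wd e.2.1)) := by
          have k1 := hM.evOn e.2.1
          rw [Nat.eq_of_beq_eq_true h6] at k1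
          have k2 := k1.inj (hM.mul (Rp.word _))
          rw [k2, wd_cons, wd_append]
        have htL : wd e.2.2 ∈ Cl L := wd_mem_Cl (sub_of_su h4)
        have hNQ : Cl L ≤ Cl CertB.Ql := Cl_mono hLQ
        obtain ⟨n, hn, e3⟩ : ∃ n ∈ Cl L, wd e.2.1 * (W * (s * (gx r * wd w'))) * (wd e.2.1)⁻¹ = W * (s * n) := by
          rcases h5 with ⟨h5, h7⟩ | ⟨h5, h7, h8⟩
          · refine step (Q := Cl CertB.Ql) (A := Cl CertB.Ql) (K := Cl CertB.Zl) (N := Cl L) ?_
              (Cl_mono (sub_of_su h5)) hNQ le_rfl hqz.comm hs (wd_mem_Cl (sub_of_su h7)) (gx_mem_Cl hrQ) (hNQ htL) htL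
              (sublist_mem hw) (gx_mul_self r) ey
            intro k hk q hq
            have := hqz.cent k hk q hq
            rw [mul_inv_eq_iff_eq_mul] at this
            exact this.symm
          · refine step (Q := Cl CertB.Ql) (A := Cl CertB.Zl) (K := ⊥) (N := Cl L) ?_ bot_le hNQ hqz.le ?_ hs
              (wd_mem_Cl (sub_of_su h7)) (gx_mem_Cl (mem_of_me h5)) (Cl_mono (sub_of_su h8) htL) htL
              (sublist_mem hw) (gx_mul_self r) ey
            · intro k hk q _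
              rw [Subgroup.mem_bot] at hk
              rw [hk, one_mul, mul_one]
            · intro a ha b hb
              rw [Subgroup.mem_bot, commutatorElement_eq_one_iff_mul_comm]
              have := hqz.cent a ha b hb
              rw [mul_inv_eq_iff_eq_mul] at this
              exact this.symm
        obtain ⟨y, c, hc, e4⟩ := ih s hs n hn
        refine ⟨y * wd e.2.1, c, hc.trans ?_, ?_⟩
        · exact (List.sublist_cons_self r L).filter _
        · rw [← e4, ← e3]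
          group

/-- **One coset.** -/
theorem CD.sound {TP N : ℕ} (hT : TabOK TP N) {C : CD} (h : C.chk TP N = true) {q : GF} (hq : q ∈ Cl CertB.Ql) :
    T13 (wd C.w * q) := by
  unfold CD.chk at h
  simp only [Bool.and_eq_true] at h
  obtain ⟨h1, h2, h3⟩ := h
  have hM : Rp C.M (wd C.w) := by
    rw [← Nat.eq_of_beq_eq_true h1]
    exact Rp.word _
  obtain ⟨y, c, hc, e⟩ := red hM flQ (fun _ hr => hr) h2 1 (one_mem _) q hq
  rw [one_mul, one_mul] at e
  apply T13.of_conj (x := y)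
  rw [e]
  exact of_walk hT hM h3 c hc

end Cfsg.Agent.H621.F4T
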