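import Cfsg.Agent.H621.F4T.CA
import Cfsg.Agent.H621.F4T.CB
import Cfsg.Agent.H621.F4T.CC
import Cfsg.Agent.H335.FT.PsAll
import Cfsg.Agent.H903.Pw.Rho
import Cfsg.Agent.H903.Pw.FTwo
import Cfsg.Agent.H824.Fs.ExPar
import Cfsg.Agent.H197.FT13.OneClass
import Cfsg.Agent.H777.T6.Defs

/-!
# S2464: the row `F₄(2)` (helper621)

Every `g ≠ 1` of `F₄(2)` is a product of two elements of order 13, and these form one class.
-/

set_option autoImplicit false

namespace Cfsg.Agent.H621.F4T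

open CoxeterSystem Cfsg.Agent.ChevalleyStructure.CoxeterGeom Cfsg.Agent.Tits.Roots Cfsg.Agent.Tits.Core
  Cfsg.Agent.Nodes.Reps Cfsg.Agent.Nodes.BNOf Cfsg.Agent.Nodes.StabComb Cfsg.Agent.Nodes.RGDLib
  Cfsg.Agent.Nodes.Bruhat Cfsg.Agent.Nodes.OppDec Cfsg.Agent.Nodes.LeviDec
open Cfsg.Lie Cfsg.Agent.ChevalleyStructure Cfsg.Agent.ChevalleyStructure.Elts
  Cfsg.Agent.ChevalleyStructure.CoxeterGeomTypes
  Cfsg.Agent.Nodes.RGDChev Cfsg.Agent.KFacts.RgdChevCoord Cfsg.Agent.H537.Pw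
open Cfsg.Agent.FourTwo.Cent Cfsg.Agent.FourTwo.Par Cfsg.Agent.FourTwo.Facts2
open Cfsg.Agent.H335.FT

universe u

theorem T13.of_hom {G H : Type*} [Group G] [Group H] (f : G →* H) (k : H →* G) (hfk : ∀ g, f (k g) = g)
    (hkf : ∀ g, k (f g) = g) {g : G} (h : T13 (f g)) : T13 g := by
  obtain ⟨a, b, h1, h2, h3, h4, e⟩ := h
  refine ⟨k a, k b, by rw [← map_pow, h1, map_one], ?_, by rw [← map_pow, h3, map_one], ?_, ?_⟩
  · intro h
    apply h2
    rw [← hfk a, h, map_one]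
  · intro h
    apply h4
    rw [← hfk b, h, map_one]
  · rw [← map_mul, ← e, hkf]

theorem conj_ne {G : Type*} [Group G] {g x : G} (h : g ≠ 1) : x * g * x⁻¹ ≠ 1 := by
  rw [Ne, conj_eq_one_iff]
  exact h

theorem map_ne {G H : Type*} [Group G] [Group H] (f : G →* H) (k : H →* G)
    (hkf : ∀ g, k (f g) = g) {g : G} (h : g ≠ 1) : f g ≠ 1 := by
  intro h1
  apply h
  rw [← hkf g, h1, map_one]

theorem fin_conj {G : Type*} [Group G] {x a b g : G} (e : g = a * b) (ha : IsConj x a) (hb : IsConj x b) :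
    ∃ u v : G, g = (u * x * u⁻¹) * (v * x * v⁻¹) := by
  obtain ⟨u, hu⟩ := isConj_iff.1 ha
  obtain ⟨v, hv⟩ := isConj_iff.1 hb
  exact ⟨u, v, by rw [hu, hv]; exact e⟩

/-! ### the cosets -/

theorem all_chk : ∀ C ∈ LA ++ LB ++ LC, C.chk TP TN = true := by
  intro C hC
  rw [List.mem_append, List.mem_append] at hC
  rcases hC with (h | h) | h
  · exact List.all_eq_true.1 chkA C h
  · exact List.all_eq_true.1 chkB C h
  · exact List.all_eq_true.1 chkC C h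

theorem rws_cd : (Cfsg.Agent.H612.Ore.rws.all fun w => w.isEmpty ||
    (LA ++ LB ++ LC).any fun C => decide (C.w = w.flatMap CertP.tw2)) = true := by decide +kernel

/-- a nontrivial coset -/
theorem coset {w : List ℕ} (hw : w ∈ Cfsg.Agent.H612.Ore.rws) (h0 : w ≠ []) {q : GF} (hq : q ∈ RG qsP) :
    T13 (Cfsg.Agent.FourTwo.Base.wd (w.flatMap tw) * q) := by
  have h1 := (List.all_eq_true.1 rws_cd) w hw
  rw [Bool.or_eq_true] at h1
  rcases h1 with h1 | h1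
  · exact absurd (List.isEmpty_iff.1 h1) h0
  · rw [List.any_eq_true] at h1
    obtain ⟨C, hC, h2⟩ := h1
    have h3 := CD.sound tab_ok (all_chk C hC) (RG_le_Cl hq)
    rw [of_decide_eq_true h2] at h3
    rwa [flat_eq]

/-! ### the elements of `Ps` outside `Q` -/

theorem rel_Q {q : GF} (hq : q ∈ RG qsP) : Cfsg.Agent.H903.Pw.Rho.Rel q 1 := by
  refine Subgroup.closure_induction (p := fun g _ => Cfsg.Agent.H903.Pw.Rho.Rel g 1) ?_ Cfsg.Agent.H903.Pw.Rho.Rel.one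
    ?_ ?_ hq
  · rintro _ ⟨r, hr, hp, rfl⟩
    have hp' : 33 ≤ r := of_decide_eq_true hp
    have h1 := Cfsg.Agent.H903.Pw.Rho.rel_x (r := r) (by omega) hr
    have key : ∀ r : Fin 48, 33 ≤ (r : ℕ) → Cfsg.Agent.H903.Pw.Rho.mt (r : ℕ) = [] := by decide
    rw [key ⟨r, hr⟩ hp'] at h1
    exact h1
  · rintro g h - - hM hN
    have := hM.mul hN
    rwa [mul_one] at this
  · rintro g - hM
    have := hM.inv
    rwa [inv_one] at this

theorem ps_out {g : GF} (hg : g ∈ Ps) (hq : g ∉ RG qsP) : T13 g := by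
  obtain ⟨w, hw, y, hy, q, hq', e⟩ := Cfsg.Agent.H903.Pw.Rho.exists_word' hg
  by_cases h0 : w = []
  · exfalso
    apply hq
    rw [h0, List.flatMap_nil, Cfsg.Agent.FourTwo.Base.wd_nil, one_mul] at e
    obtain ⟨M, hM⟩ := Cfsg.Agent.H903.Pw.Rho.exists_rel hg
    obtain ⟨N, hN⟩ := Cfsg.Agent.H903.Pw.Rho.exists_rel hy
    have h1 := (hN.mul hM).mul hN.inv
    rw [e] at h1
    have h2 := h1.unique (rel_Q hq')
    have h3 : M = 1 := by
      rw [mul_inv_eq_one, mul_eq_left] at h2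
      exact h2
    rw [h3] at hM
    exact Cfsg.Agent.H903.Pw.Rho.mem_Q_of_rel hM
  · apply T13.of_conj (x := y)
    rw [e]
    exact coset hw h0 hq'

/-! ### the elements of `2`-power order -/

theorem x_mem_VJ {J : Set (Fin 4)} {r : ℕ} (hr : r < 48) (h0 : ∀ i, 0 ≤ vec chevF4 4 r i) {k : Fin 4} (hk : k ∉ J)
    (hk0 : 0 < vec chevF4 4 r k) :
    Cfsg.Agent.FourTwo.Base.x r ∈ VJ csF isType_F4.isCartan (XX chevF4 4 (ZMod 2)) J := by
  have h1 : vec chevF4 4 r ∈ NotJ csF isType_F4.isCartan J :=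
    ⟨(isRoot_iff isType_F4 csF _).2 ⟨r, hr, rfl⟩, h0, k, hk, hk0⟩
  refine RGD.le_Sup h1 ?_
  rw [Subgroup.mem_subgroupOf, XV_vec isType_F4 (ZMod 2) hr, mem_rootSubgroup_iff hD]
  exact ⟨1, rfl⟩

theorem Pos_le : RGD.Sup (XX chevF4 4 (ZMod 2)) (RGD.Pos csF isType_F4.isCartan) ≤ RG (fun r => decide (24 ≤ r)) := by
  have h1 : RGD.Sup (XX chevF4 4 (ZMod 2)) (RGD.Pos csF isType_F4.isCartan) ≤ Cl (CertB.Pl ++ CertB.Ql) := by
    refine Sup_le_Cl (by decide) (fun x hx => hx.1) ?_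
    rintro r hr ⟨-, h0⟩
    have key : ∀ r : Fin 48, (∀ i : Fin 4, 0 ≤ vec chevF4 4 r i) → (r : ℕ) ∈ CertB.Pl ++ CertB.Ql := by
      decide +kernel
    exact key ⟨r, hr⟩ (fun i => h0 i)
  refine h1.trans ?_
  unfold Cl
  rw [Subgroup.closure_le]
  rintro _ ⟨r, hr, rfl⟩
  have key : ∀ r ∈ CertB.Pl ++ CertB.Ql, r ∈ used ∧ 24 ≤ r ∧ r < 48 := by decide
  obtain ⟨k1, k2, k3⟩ := key r hr
  rw [gx_eq' k1]
  exact x_mem_RG k3 (decide_eq_true k2)

theorem out_A {g : GF} (hg : g ∈ RG (fun r => decide (24 ≤ r)))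
    (h : g ∉ VJ csF isType_F4.isCartan (XX chevF4 4 (ZMod 2)) {i : Fin 4 | i ≠ 3}) : T13 g := by
  obtain ⟨α, hα⟩ := Cfsg.Agent.FourTwo.Base.exists_graph
  have tab : ∀ r : Fin 48, 24 ≤ (r : ℕ) → Cfsg.Agent.FourTwo.Base.bar r < 48 ∧ 24 ≤ Cfsg.Agent.FourTwo.Base.bar r ∧
      (33 ≤ (r : ℕ) → Cfsg.Agent.FourTwo.Base.bar (Cfsg.Agent.FourTwo.Base.bar r) = r ∧
        (∀ i : Fin 4, 0 ≤ vec chevF4 4 (Cfsg.Agent.FourTwo.Base.bar r) i) ∧
        0 < vec chevF4 4 (Cfsg.Agent.FourTwo.Base.bar r) 3) := by decide +kernel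
  have h1 : α g ∈ Ps := by
    have : RG (fun r => decide (24 ≤ r)) ≤ Ps.comap α.toMonoidHom := by
      refine RG_le fun r hr hp => ?_
      obtain ⟨t1, t2, -⟩ := tab ⟨r, hr⟩ (of_decide_eq_true hp)
      rw [Subgroup.mem_comap]
      change α (Cfsg.Agent.FourTwo.Base.x r) ∈ Ps
      rw [hα r hr]
      have t2' : 15 ≤ Cfsg.Agent.FourTwo.Base.bar r := le_trans (by norm_num) t2
      exact x_mem_RG t1 (decide_eq_true t2')
    exact this hg
  have h2 : α g ∉ RG qsP := by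
    intro h2
    apply h
    have : RG qsP ≤ (VJ csF isType_F4.isCartan (XX chevF4 4 (ZMod 2)) {i : Fin 4 | i ≠ 3}).comap
        α.symm.toMonoidHom := by
      refine RG_le fun r hr hp => ?_
      have hp' : 33 ≤ r := of_decide_eq_true hp
      obtain ⟨t1, t2, t3⟩ := tab ⟨r, hr⟩ (show 24 ≤ r by omega)
      obtain ⟨t4, t5, t6⟩ := t3 hp'
      rw [Subgroup.mem_comap]
      have e : α.symm.toMonoidHom (Cfsg.Agent.FourTwo.Base.x r) =
          Cfsg.Agent.FourTwo.Base.x (Cfsg.Agent.FourTwo.Base.bar r) := by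
        change α.symm (Cfsg.Agent.FourTwo.Base.x r) = _
        rw [MulEquiv.symm_apply_eq, hα _ t1]
        exact congrArg _ t4.symm
      rw [e]
      exact x_mem_VJ t1 t5 (k := 3) (by simp) t6
    have h3 := this h2
    rw [Subgroup.mem_comap] at h3
    have e : α.symm.toMonoidHom (α g) = g := α.symm_apply_apply g
    rwa [e] at h3
  exact T13.of_hom α.toMonoidHom α.symm.toMonoidHom α.apply_symm_apply α.symm_apply_apply (ps_out h1 h2)

theorem out_B {g : GF} (hg : g ∈ RG (fun r => decide (24 ≤ r)))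
    (h : g ∉ VJ csF isType_F4.isCartan (XX chevF4 4 (ZMod 2)) {i : Fin 4 | i ≠ 0}) : T13 g := by
  refine ps_out (RG_mono (fun r _ hp => ?_) hg) fun h2 => h ?_
  · have hp' : 24 ≤ r := of_decide_eq_true hp
    exact decide_eq_true (by omega)
  · have : RG qsP ≤ VJ csF isType_F4.isCartan (XX chevF4 4 (ZMod 2)) {i : Fin 4 | i ≠ 0} := by
      refine RG_le fun r hr hp => ?_
      have hp' : 33 ≤ r := of_decide_eq_true hp
      have tab : ∀ r : Fin 48, 33 ≤ (r : ℕ) → (∀ i : Fin 4, 0 ≤ vec chevF4 4 r i) ∧ 0 < vec chevF4 4 r 0 := by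
        decide +kernel
      obtain ⟨t5, t6⟩ := tab ⟨r, hr⟩ hp'
      exact x_mem_VJ hr t5 (k := 0) (by simp) t6
    exact this h2

/-- the elements of `2`-power order -/
theorem two {g : GF} {k : ℕ} (hg1 : g ≠ 1) (hg : g ^ 2 ^ k = 1) : T13 g := by
  have : Fact (Nat.Prime 2) := ⟨Nat.prime_two⟩
  obtain ⟨x, hU, h⟩ := exists_conj_notMem_F4 (K := ZMod 2) (r := 2) simpleF (J := {i : Fin 4 | i ≠ 3})
    (J1 := {i : Fin 4 | i ≠ 0}) (by decide) hg1 hg
  refine T13.of_conj (x := x) ?_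
  rcases h with h | h
  · exact out_A (Pos_le hU) h
  · exact out_B (Pos_le hU) h

/-! ### the elements of even order -/

theorem ps_all {g : GF} (hg : g ∈ Ps) (hg1 : g ≠ 1) : T13 g := by
  by_cases h : g ∈ RG qsP
  · exact two hg1 (pow_RG h)
  · exact ps_out hg h

theorem even {g : GF} (hg1 : g ≠ 1) (hg : Even (orderOf g)) : T13 g := by
  obtain ⟨x, hx | hx⟩ := Cfsg.Agent.H824.Fs.exists_conj_par g hg
  · exact T13.of_conj (x := x) (ps_all hx (conj_ne hg1))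
  · obtain ⟨α, hα⟩ := Cfsg.Agent.H903.Pw.FTwo.exists_gam
    refine T13.of_conj (x := x) (T13.of_hom α.toMonoidHom α.symm.toMonoidHom α.apply_symm_apply α.symm_apply_apply ?_)
    exact ps_all (hα _ hx) (map_ne α.toMonoidHom α.symm.toMonoidHom α.symm_apply_apply (conj_ne hg1))

/-! ### one class of elements of order 13 -/

/-- an element of order 13 -/
noncomputable def x13 : GF := wd [22, 20, 41, 23, 43, 14]

/-- the word of a normalising element -/
def nw : List ℕ := [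
  22, 31, 23, 37, 22, 41, 14, 37, 20, 31, 23, 47, 22, 25, 23, 30, 14, 29, 14, 44, 20, 41, 23, 40, 14, 39, 22,
  29, 20, 29, 22, 40, 14, 32, 20, 44, 23, 45, 22, 29, 14, 39, 23, 31, 23, 45, 23, 33, 23, 26, 22, 33, 23, 30,
  14, 40, 14, 24, 14, 30, 20, 27, 22, 25, 20, 40, 22, 38, 20, 40, 22, 45, 22, 33, 23, 42, 14, 44, 22, 26, 41,
  20, 32, 22, 38, 14, 31, 23, 43, 23, 47, 23, 30, 14, 25, 14, 46, 14, 42, 22, 30, 23, 43, 23, 37, 22, 44, 23,
  38, 22, 45, 20, 27, 14, 37, 20, 36, 14, 44, 22, 30, 23, 32, 22, 27, 23, 30, 22, 47, 14, 45, 22, 28, 22, 40,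
  14, 33, 14, 37, 14, 24, 14, 39, 22, 26, 22, 39, 23, 39, 23, 40, 20, 36, 14, 42, 23, 42, 14, 25, 23]

theorem orderOf_x13 : orderOf x13 = 13 := by
  have h1 : c13 (evOn [22, 20, 41, 23, 43, 14] Cfsg.Agent.ChevalleyStructure.Tits.Pack.oneP) = true := by
    decide +kernel
  obtain ⟨h2, h3⟩ := of_c13 (Rp.word [22, 20, 41, 23, 43, 14]) h1
  have : Fact (Nat.Prime 13) := ⟨by norm_num⟩
  exact orderOf_eq_prime h2 h3

theorem conj_x13 : wd nw * x13 * (wd nw)⁻¹ = x13 ^ 2 := by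
  have h1 : eqW (nw ++ [22, 20, 41, 23, 43, 14])
      ([22, 20, 41, 23, 43, 14] ++ ([22, 20, 41, 23, 43, 14] ++ nw)) = true := by decide +kernel
  have h2 := wd_eq h1
  rw [wd_append, wd_append, wd_append, ← mul_assoc] at h2
  rw [mul_inv_eq_iff_eq_mul, pow_two]
  exact h2

theorem conj_of {y : GF} (hy : y ^ 13 = 1) (hy1 : y ≠ 1) : IsConj x13 y := by
  have : Fact (Nat.Prime 13) := ⟨by norm_num⟩
  exact Cfsg.Agent.H197.FT13.conj_of_order conj_x13 orderOf_x13 (orderOf_eq_prime hy hy1)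

/-! ### the row -/

theorem all_two {g : GF} (hg : g ≠ 1) : ∃ u v : GF, g = (u * x13 * u⁻¹) * (v * x13 * v⁻¹) := by
  obtain ⟨a, b, e, ha, hb⟩ : ∃ a b : GF, g = a * b ∧ IsConj x13 a ∧ IsConj x13 b := by
    by_cases h : Even (orderOf g)
    · obtain ⟨a, b, h1, h2, h3, h4, e⟩ := even hg h
      exact ⟨a, b, e, conj_of h1 h2, conj_of h3 h4⟩
    · have h2 : ¬ 2 ∣ orderOf g := fun h2 => h (even_iff_two_dvd.2 h2)
      refine Cfsg.Agent.H903.Pw.GowF.gowF (K := ZMod 2) Nat.prime_two (Nat.card_zmod 2) ?_ hg h2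
      rw [Cfsg.Agent.H197.FT13.cent_card orderOf_x13]
      norm_num
  exact @fin_conj GF (Subgroup.toGroup _) x13 a b g e ha hb

/-- **The row `F₄(2)`** of S2464. -/
theorem row_two : Cfsg.Agent.H777.T6.T6 GF :=
  ⟨x13, x13, by rw [orderOf_x13]; norm_num, by rw [orderOf_x13]; norm_num, fun _ hg => all_two hg⟩

/-- **The row `F₄(2)`** of S2464, over any field with two elements. -/
theorem six_F4_two {K : Type u} [Field K] (hK : Nat.card K = 2) :
    Cfsg.Agent.H777.T6.T6 ↥(chevF4.group K) := by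
  have : Finite K := Nat.finite_of_card_ne_zero (by rw [hK]; norm_num)
  let _ : Fintype K := Fintype.ofFinite K
  have hc : Fintype.card (ZMod 2) = Fintype.card K := by
    rw [ZMod.card, ← Nat.card_eq_fintype_card, hK]
  let e := Cfsg.Agent.H64.ChevField.groupCongr (FiniteField.ringEquivOfCardEq hc) chevF4
  exact @Cfsg.Agent.H777.T6.T6.congr _ _ (Subgroup.toGroup _) (Subgroup.toGroup _) e row_two

end Cfsg.Agent.H621.F4T
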